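import Cfsg.Agent.S1082
import Cfsg.Agent.LieClassical.OrthCenter
import Cfsg.Agent.LieClassical.OrthForms
import Cfsg.Agent.Prune
set_option linter.all false
prune_inst 0x7f00000000000000000000000000000000000000000000000000000000000000000000000000000000000000000000000000000000000000000000000000000000000000000000000000000000000000003fffffffffffffffffffffffffffbeffbdffffffff
open scoped Cfsg.Agent.FastGrp

/-!
# `D₄(F) ≃* Ω₈⁺(F)` in characteristic two (helper857, S3384)
-/

set_option autoImplicit false

namespace Cfsg.Agent.H857.OE8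

open QuadraticMap Cfsg.Agent.LieClassical.OrthForms

theorem center_omega {F : Type*} [Field F] (h2 : (2 : F) = 0) :
    Subgroup.center (Cfsg.Omega F (Cfsg.quadFormPlus 4 F)) = ⊥ := by
  have hnd := nondeg_plusForm 4 F
  have h1 : Subgroup.center (Cfsg.Omega F ⇑(plusForm 4 F)) = ⊥ := by
    refine Cfsg.Agent.LieClassical.OrthCenter.center_omega_eq_bot_char_two h2 ?_ ?_ ?_
    · refine ⟨fun x hx => hnd x fun y => hx y, fun x hx => hnd x fun y => ?_⟩
      rw [polar_comm]
      exact hx y
    · simp
    · refine ⟨Pi.single (Sum.inl 0) 1, ?_, ?_⟩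
      · intro h0
        have := congrFun h0 (Sum.inl 0)
        simp at this
      · rw [coe_plusForm, quadFormPlus_apply]
        rw [Finset.sum_eq_zero fun i _ => by simp]
  rwa [coe_plusForm] at h1

/-- `D₄(F) ≃* Ω₈⁺(F)` in characteristic two. -/
theorem d4_omega {F : Type*} [Field F] (h2 : (2 : F) = 0) :
    Nonempty (↥(Cfsg.Lie.chevD4.group F) ≃* ↥(Cfsg.Omega F (Cfsg.quadFormPlus 4 F))) := by
  obtain ⟨e⟩ := Cfsg.Agent.S1082.result (F := F)
  exact ⟨(e.trans (QuotientGroup.quotientMulEquivOfEq (center_omega h2))).trans QuotientGroup.quotientBot⟩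

end Cfsg.Agent.H857.OE8
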